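import Cfsg.Agent.H761.JM.E2Data
import Cfsg.Agent.H761.JM.GeoRed
import Cfsg.Agent.H68.JM.F5
import Cfsg.Agent.H825.JM.Lines
import Cfsg.Agent.H41.JM.F7
import Cfsg.Agent.H265.JM.EQ
import Cfsg.Agent.H878.JM.Five

/-!
# The A4-subgroups of `J4`: nine classes of pairs
-/

set_option autoImplicit false

open Cfsg

namespace Cfsg.Agent.H761.JM

open Cfsg.Agent.J4.M24Hom Cfsg.Agent.J4.Nodes Cfsg.Agent.J4.Pres Cfsg.Agent.J4.Classes
open Cfsg.Agent.J4.Invol (EJ)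
open Cfsg.Agent.H858.VK Cfsg.Agent.H858.Data Cfsg.Agent.H858
open Cfsg.Agent.H878.JM.Base Cfsg.Agent.H860.JM

local notation "𝒢" => Cfsg.Spor.J4

/-- the case of a point: classes 1, 2, 7, 8, 3, 5 -/
theorem caseP {v y : 𝒢} (hv : v ∈ EJ) (hv1 : v ≠ 1)
    (hyN : y ∈ Subgroup.normalizer (EJ : Set 𝒢)) (h3 : y * y * y = 1) (h1 : y ≠ 1)
    (hvy : v * y * (v * y) * (v * y) = 1) :
    ∃ g, g * y * g⁻¹ = y0 ∧ (g * v * g⁻¹ = v1 ∨ g * v * g⁻¹ = v2 ∨ g * v * g⁻¹ = v7 ∨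
      g * v * g⁻¹ = v8 ∨ g * v * g⁻¹ = v3 ∨ g * v * g⁻¹ = v5) := by
  obtain ⟨g, ⟨hg, r, hr, hr2⟩ | ⟨hg, r, hr, hr2⟩⟩ := caseP0 hv hv1 hyN h3 h1 hvy
  · refine ⟨g, by rw [hg, y0_eq], ?_⟩
    have hR : r = 972 ∨ r = 1661 := by unfold R0 at hr; simpa using hr
    rcases hR with rfl | rfl
    · left; rw [hr2, v1_eq]
    · right; left; rw [hr2, v2_eq]
  · have hR : r = 6 ∨ r = 226 ∨ r = 51 ∨ r = 170 := by unfold R1 at hr; simpa using hr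
    have e1 : g0⁻¹ * g * y * (g0⁻¹ * g)⁻¹ = y0 := by
      rw [← k1_eq, ← hg]; group
    have e2 : g0⁻¹ * g * v * (g0⁻¹ * g)⁻¹ = g0⁻¹ * V r * g0 := by
      rw [← hr2]; group
    have key : ∀ (c w : 𝒢), c * y0 = y0 * c → c * (g0⁻¹ * V r * g0) = w * c →
        c * (g0⁻¹ * g) * y * (c * (g0⁻¹ * g))⁻¹ = y0 ∧
        c * (g0⁻¹ * g) * v * (c * (g0⁻¹ * g))⁻¹ = w := by
      intro c w hc hw
      constructor
      · calc c * (g0⁻¹ * g) * y * (c * (g0⁻¹ * g))⁻¹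
            = c * (g0⁻¹ * g * y * (g0⁻¹ * g)⁻¹) * c⁻¹ := by group
          _ = y0 := by rw [e1, hc, mul_inv_cancel_right]
      · calc c * (g0⁻¹ * g) * v * (c * (g0⁻¹ * g))⁻¹
            = c * (g0⁻¹ * g * v * (g0⁻¹ * g)⁻¹) * c⁻¹ := by group
          _ = w := by rw [e2, hw, mul_inv_cancel_right]
    rcases hR with rfl | rfl | rfl | rfl
    · exact ⟨_, e1, Or.inr (Or.inr (Or.inl (by rw [e2, v7_eq])))⟩
    · exact ⟨_, e1, Or.inr (Or.inr (Or.inr (Or.inl (by rw [e2, v8_eq]))))⟩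
    · obtain ⟨c, hc, hw⟩ := v3_conj
      obtain ⟨h4, h5⟩ := key c v3 hc hw
      exact ⟨_, h4, Or.inr (Or.inr (Or.inr (Or.inr (Or.inl h5))))⟩
    · obtain ⟨c, hc, hw⟩ := v5_conj
      obtain ⟨h4, h5⟩ := key c v5 hc hw
      exact ⟨_, h4, Or.inr (Or.inr (Or.inr (Or.inr (Or.inr h5))))⟩

theorem A4.conj {G : Type*} [Group G] {v y : G} (h : A4 v y) (g : G) :
    A4 (g * v * g⁻¹) (g * y * g⁻¹) where
  vne := fun e => h.vne (conj_eq_one_iff.1 e)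
  vsq := by
    have : g * v * g⁻¹ * (g * v * g⁻¹) = g * (v * v) * g⁻¹ := by group
    rw [this, h.vsq]; group
  y3 := by
    have : g * y * g⁻¹ * (g * y * g⁻¹) * (g * y * g⁻¹) = g * (y * y * y) * g⁻¹ := by group
    rw [this, h.y3]; group
  vy := by
    have : g * v * g⁻¹ * (g * y * g⁻¹) * (g * v * g⁻¹ * (g * y * g⁻¹)) *
        (g * v * g⁻¹ * (g * y * g⁻¹)) = g * (v * y * (v * y) * (v * y)) * g⁻¹ := by group
    rw [this, h.vy]; group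

theorem inv_mem_of_cj {G : Type*} [Group G] {P : Subgroup G} {g x : G} (h : x ∈ cj g P) :
    g⁻¹ * x * g ∈ P := by
  obtain ⟨z, hz, rfl⟩ := h
  have : g⁻¹ * (MulAut.conj g).toMonoidHom z * g = z := by
    show g⁻¹ * (g * z * g⁻¹) * g = z
    group
  rw [this]; exact hz

theorem inv_mem_normalizer {G : Type*} [Group G] {P : Subgroup G} {g y : G}
    (h : y ∈ Subgroup.normalizer (cj g P : Set G)) :
    g⁻¹ * y * g ∈ Subgroup.normalizer (P : Set G) := by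
  rw [Subgroup.mem_normalizer_iff] at h ⊢
  intro x
  have h1 := h (g * x * g⁻¹)
  constructor
  · intro hx
    have h2 := inv_mem_of_cj (h1.1 (mem_cj_of hx))
    have : g⁻¹ * (y * (g * x * g⁻¹) * y⁻¹) * g = g⁻¹ * y * g * x * (g⁻¹ * y * g)⁻¹ := by group
    rwa [this] at h2
  · intro hx
    have h2 : y * (g * x * g⁻¹) * y⁻¹ ∈ cj g P := by
      have h3 := mem_cj_of (g := g) hx
      have : g * (g⁻¹ * y * g * x * (g⁻¹ * y * g)⁻¹) * g⁻¹ = y * (g * x * g⁻¹) * y⁻¹ := by group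
      rwa [this] at h3
    have h4 := inv_mem_of_cj (h1.2 h2)
    have : g⁻¹ * (g * x * g⁻¹) * g = x := by group
    rwa [this] at h4

/-- **(E2)** the pairs generating an `A4` -/
theorem e2 : Cfsg.Agent.H878.JM.Five.E2 := by
  intro y v h
  have hA : A4 v y := by
    refine ⟨h.v_ne, h.sq, h.cube, ?_⟩
    have := h.br
    rwa [pow_succ, pow_two] at this
  have f5 := Cfsg.Agent.H68.JM.f5
  rcases geo_red Cfsg.Agent.H860.JM.f1 Cfsg.Agent.H860.JM.f4 f5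
    (Cfsg.Agent.H825.JM.f6 f5) Cfsg.Agent.H41.JM.f7 hA with ⟨P, ⟨g, rfl⟩, hvP, hyP⟩ | ⟨hB, hno⟩
  · have h1 := inv_mem_of_cj hvP
    have h2 := inv_mem_normalizer hyP
    have hA' := hA.conj g⁻¹
    rw [inv_inv] at hA'
    obtain ⟨g', h3, h4⟩ := caseP h1 hA'.vne h2 hA'.y3 hA'.yne hA'.vy
    refine ⟨g' * g⁻¹, ?_, ?_⟩
    · rw [← h3]; group
    · have e : g' * g⁻¹ * v * (g' * g⁻¹)⁻¹ = g' * (g⁻¹ * v * g) * g'⁻¹ := by group
      rw [e]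
      rcases h4 with h4 | h4 | h4 | h4 | h4 | h4
      · exact Or.inl h4
      · exact Or.inr (Or.inl h4)
      · exact Or.inr (Or.inr (Or.inr (Or.inr (Or.inr (Or.inr (Or.inl h4))))))
      · exact Or.inr (Or.inr (Or.inr (Or.inr (Or.inr (Or.inr (Or.inr (Or.inl h4)))))))
      · exact Or.inr (Or.inr (Or.inl h4))
      · exact Or.inr (Or.inr (Or.inr (Or.inr (Or.inl h4))))
  · obtain ⟨P, ⟨g, rfl⟩, hvP, -, -⟩ := Cfsg.Agent.H860.JM.f4 v hB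
    have h1 := inv_mem_of_cj hvP
    have hA' := hA.conj g⁻¹
    rw [inv_inv] at hA'
    have hB' : IsConj Cfsg.Agent.J4.Invol.d (g⁻¹ * v * g) := by
      have := Cfsg.Agent.H860.JM.f1.B_conj g⁻¹ v hB
      rwa [inv_inv] at this
    have hn : g⁻¹ * y * g * (g⁻¹ * v * g) * (g⁻¹ * y * g)⁻¹ ∉ EJ := by
      intro h5
      apply hno (cj g EJ) ⟨g, rfl⟩ hvP
      have h6 := mem_cj_of (g := g) h5
      have e : g * (g⁻¹ * y * g * (g⁻¹ * v * g) * (g⁻¹ * y * g)⁻¹) * g⁻¹ = y * v * y⁻¹ := by group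
      rwa [e] at h6
    obtain ⟨g', h3, h4⟩ := Cfsg.Agent.H265.JM.EQ.Q hB' h1 hA'.y3 hA'.vy hn
    refine ⟨g' * g⁻¹, ?_, ?_⟩
    · rw [← h3]; group
    · have e : g' * g⁻¹ * v * (g' * g⁻¹)⁻¹ = g' * (g⁻¹ * v * g) * g'⁻¹ := by group
      rw [e]
      rcases h4 with h4 | h4 | h4
      · exact Or.inr (Or.inr (Or.inr (Or.inl h4)))
      · exact Or.inr (Or.inr (Or.inr (Or.inr (Or.inr (Or.inl h4)))))
      · exact Or.inr (Or.inr (Or.inr (Or.inr (Or.inr (Or.inr (Or.inr (Or.inr h4)))))))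

end Cfsg.Agent.H761.JM
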