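import Cfsg.Agent.H858.M24Norm

/-!
# Elements of order 3 of `M24`: two classes (1^6 3^6 and 3^8)
-/

set_option autoImplicit false

open Cfsg

namespace Cfsg.Agent.H761.JM

open Cfsg.Agent.J4.M24Hom Cfsg.Agent.J4.Nodes Cfsg.Agent.J4.Packed

/-- word of the element `k0` of type `1^6 3^6` -/
def w0 : List ℕ :=
  [0, 2, 0, 2, 0, 1, 0, 2, 0, 1, 0, 2, 0, 1, 0, 1, 0, 2, 0, 2, 0, 2, 0, 1, 0, 1, 0, 1, 0, 2, 0,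
  2, 0, 2, 0, 2, 0, 1, 0, 1, 0, 2, 0, 2, 0, 2, 0, 1, 0, 2]

/-- word of the element `k1` of type `3^8` -/
def w1 : List ℕ :=
  [0, 2, 0, 1, 0, 2, 0, 1, 0, 2, 0, 1, 0, 2, 0, 1]

/-- the 26 nontrivial elements of a Sylow 3-subgroup: word, word of a conjugating element, type -/
def tab3 : List (List ℕ × List ℕ × ℕ) := [
  ([0, 1, 0, 1, 0, 2, 0, 1, 0, 1, 0, 1, 0, 1, 0, 2, 0, 1, 0, 1, 0, 1, 0, 2, 0, 1, 0, 1, 0, 1,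
  0, 1, 0, 1, 0, 1, 0, 2, 0, 2, 0, 1, 0, 1, 0, 1, 0, 2, 0, 2], [0, 2, 0, 1, 0, 2, 0, 2, 0, 1,
  0, 1, 0, 1, 0, 1, 0, 2, 0, 2, 0, 2, 0, 2, 0, 2, 0, 1, 0, 2, 0, 1, 0, 2, 0, 1, 0, 1, 0, 1, 0,
  2, 0, 1], 1),
  ([2, 0, 2, 0, 2, 0, 2, 0, 2, 0, 1, 0, 1, 0, 1, 0, 2, 0, 2, 0, 2, 0, 1, 0, 1, 0, 1, 0, 1, 0,
  1, 0, 1, 0, 1, 0, 2, 0, 2, 0, 2, 0, 1, 0, 1, 0, 2, 0, 2, 0, 1, 0, 1, 0, 1], [0, 2, 0, 2, 0,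
  1, 0, 2, 0, 2, 0, 2, 0, 1, 0, 2, 0, 2, 0, 2, 0, 2, 0, 2, 0, 1, 0, 1, 0, 2, 0, 2, 0, 2, 0, 1,
  0, 1, 0, 1, 0, 1, 0, 1, 0], 1),
  ([0, 2, 0, 2, 0, 1, 0, 2, 0, 1, 0, 2, 0, 1, 0, 1, 0, 2, 0, 2, 0, 2, 0, 1, 0, 1, 0, 1, 0, 2,
  0, 2, 0, 2, 0, 2, 0, 1, 0, 1, 0, 2, 0, 2, 0, 2, 0, 1, 0, 2], [2, 0, 2, 0, 2, 0, 1, 0, 1, 0,
  1, 0, 2, 0, 2, 0, 2, 0, 2, 0, 1, 0, 1, 0, 1, 0, 2, 0, 2, 0, 1, 0, 2, 0, 1, 0, 2, 0, 2, 0, 2,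
  0, 1], 0),
  ([1, 0, 1, 0, 2, 0, 1, 0, 1, 0, 1, 0, 1, 0, 2, 0, 1, 0, 1, 0, 1, 0, 2, 0, 1, 0, 1, 0, 1, 0,
  1, 0, 1, 0, 1, 0, 2, 0, 2, 0, 1, 0, 1, 0, 1, 0, 2, 0, 2, 0], [1, 0, 1, 0, 2, 0, 2, 0, 2, 0,
  2, 0, 2, 0, 1, 0, 1, 0, 1, 0, 2, 0, 2, 0, 1, 0, 1, 0, 2, 0, 1, 0, 1, 0, 1, 0, 1], 1),
  ([0, 1, 0, 1, 0, 1, 0, 2, 0, 2, 0, 2, 0, 1, 0, 1, 0, 1, 0, 2, 0, 1, 0, 2, 0, 2, 0, 2, 0, 1,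
  0, 1, 0, 1, 0, 2, 0, 1, 0, 1, 0, 2, 0, 1, 0, 2, 0, 1, 0, 1, 0, 1, 0, 2], [1, 0, 2, 0, 2, 0,
  2, 0, 1, 0, 2, 0, 2, 0, 2, 0, 2, 0, 2, 0, 2, 0, 2, 0, 1, 0, 2, 0, 1, 0, 1, 0, 2, 0, 1, 0, 1,
  0, 1, 0, 1, 0], 0),
  ([1, 0, 2, 0, 2, 0, 1, 0, 2, 0, 2, 0, 2, 0, 2, 0, 2, 0, 1, 0, 2, 0, 2, 0, 1, 0, 1, 0, 1, 0,
  2, 0, 1, 0, 1, 0, 1, 0, 1, 0, 1, 0, 1], [0, 2, 0, 1, 0, 1, 0, 1, 0, 1, 0, 1, 0, 2, 0, 1, 0,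
  1, 0, 2, 0, 2, 0, 2, 0, 1, 0, 1, 0, 1, 0, 1, 0, 1, 0, 2, 0, 2, 0, 1, 0, 1, 0, 2, 0, 2], 1),
  ([1, 0, 1, 0, 1, 0, 1, 0, 1, 0, 1, 0, 1, 0, 2, 0, 1, 0, 2, 0, 2, 0, 2, 0, 1, 0, 2, 0, 2, 0,
  2, 0, 2, 0, 2, 0, 2, 0, 2, 0, 1, 0, 2, 0, 2, 0, 2, 0, 1, 0, 1, 0, 2, 0], [0, 2, 0, 2, 0, 1,
  0, 1, 0, 1, 0, 2, 0, 2, 0, 2, 0, 2, 0, 2, 0, 1, 0, 2, 0, 2, 0, 2, 0, 1, 0, 1], 0),
  ([2, 0, 2, 0, 1, 0, 1, 0, 1, 0, 2, 0, 2, 0, 2, 0, 2, 0, 2, 0, 2, 0, 2, 0, 2, 0, 2, 0, 1, 0,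
  1, 0, 1, 0, 2, 0, 2, 0, 1, 0, 1, 0, 2, 0, 1, 0, 2, 0, 2, 0, 2, 0, 2, 0, 1], [2, 0, 2, 0, 2,
  0, 2, 0, 2, 0, 2, 0, 2, 0, 2, 0, 2, 0, 1, 0, 1, 0, 1, 0, 1, 0, 2, 0, 1, 0, 2, 0, 2, 0, 1, 0],
  1),
  ([2, 0, 2, 0, 2, 0, 1, 0, 2, 0, 1, 0, 2, 0, 1, 0, 1, 0, 1, 0, 1, 0, 1, 0, 2, 0, 1, 0, 1, 0,
  1, 0, 1, 0, 2, 0, 2, 0, 2, 0, 1, 0, 1, 0, 1, 0, 1, 0, 2, 0, 1, 0, 1], [0, 2, 0, 2, 0, 2, 0,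
  1, 0, 2, 0, 1, 0, 2, 0, 1, 0, 2, 0, 2, 0, 2, 0, 2, 0, 1, 0, 2, 0, 2, 0, 1, 0, 1, 0, 1, 0, 2,
  0, 1, 0, 2, 0, 1], 1),
  ([1, 0, 2, 0, 1, 0, 1, 0, 1, 0, 2, 0, 2, 0, 1, 0, 1, 0, 1, 0, 1, 0, 2, 0, 2, 0, 2, 0, 1, 0,
  1, 0, 1, 0, 2, 0, 2, 0, 1, 0, 2, 0, 1, 0, 2, 0, 1, 0, 1, 0], [2, 0, 1, 0, 1, 0, 2, 0, 1, 0,
  1, 0, 1, 0, 2, 0, 2, 0, 1, 0, 1, 0, 1, 0, 2, 0, 2, 0, 2, 0, 2, 0, 1, 0, 1, 0, 1, 0, 2, 0, 1,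
  0, 2, 0, 1], 0),
  ([0, 1, 0, 1, 0, 2, 0, 2, 0, 2, 0, 2, 0, 2, 0, 1, 0, 1, 0, 2, 0, 2, 0, 1, 0, 1, 0, 1, 0, 2,
  0, 1, 0, 1, 0, 1, 0, 1, 0, 1, 0, 1, 0, 1, 0, 2, 0, 1, 0, 1, 0, 2, 0, 1, 0, 2, 0], [0, 1, 0,
  2, 0, 2, 0, 1, 0, 1, 0, 2, 0, 1, 0, 2, 0, 2, 0, 2, 0, 1, 0, 2, 0, 2, 0, 1, 0, 1, 0, 1, 0, 1,
  0, 2, 0, 1, 0, 1, 0, 1, 0], 0),
  ([1, 0, 2, 0, 1, 0, 1, 0, 1, 0, 2, 0, 1, 0, 2, 0, 1, 0, 2, 0, 1, 0, 2, 0, 2, 0, 1, 0, 2, 0,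
  1, 0, 1, 0, 2, 0, 2, 0, 1, 0, 1, 0, 1, 0, 1, 0, 2, 0, 1, 0], [0, 1, 0, 1, 0, 2, 0, 1, 0, 1,
  0, 2, 0, 2, 0, 1, 0, 2, 0, 2, 0, 2, 0, 2, 0, 1, 0, 2, 0, 2, 0, 1, 0, 1, 0, 1, 0, 2, 0, 1], 1),
  ([2, 0, 1, 0, 2, 0, 1, 0, 2, 0, 1, 0, 1, 0, 1, 0, 2, 0, 2, 0, 1, 0, 1, 0, 1, 0, 2, 0, 1, 0,
  1, 0, 1, 0, 1, 0, 1, 0, 1, 0, 2, 0, 1, 0, 1, 0, 1, 0, 1, 0, 2, 0], [2, 0, 1, 0, 2, 0, 2, 0,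
  1, 0, 2, 0, 2, 0, 2, 0, 1, 0, 2, 0, 1, 0, 2, 0, 1, 0, 1, 0, 2, 0, 2, 0, 1, 0, 2, 0, 1, 0, 1,
  0, 1, 0, 1], 0),
  ([2, 0, 2, 0, 1, 0, 1, 0, 2, 0, 1, 0, 1, 0, 1, 0, 2, 0, 2, 0, 1, 0, 1, 0, 1, 0, 1, 0, 2, 0,
  1, 0, 2, 0, 1, 0, 2, 0, 1, 0, 1, 0, 2, 0, 2, 0, 2, 0, 1, 0], [0, 1, 0, 2, 0, 2, 0, 2, 0, 1,
  0, 1, 0, 2, 0, 2, 0, 1, 0, 2, 0, 1, 0, 2, 0, 1, 0, 1, 0, 1, 0, 1, 0, 2, 0, 1, 0, 1, 0, 1], 0),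
  ([1, 0, 2, 0, 1, 0, 1, 0, 1, 0, 1, 0, 2, 0, 1, 0, 2, 0, 1, 0, 2, 0, 1, 0, 2, 0, 1, 0, 1, 0,
  2, 0, 1, 0, 2, 0, 1, 0, 1, 0, 2, 0, 2, 0, 2, 0, 1, 0, 2, 0, 2, 0], [1, 0, 1, 0, 2, 0, 1, 0,
  1, 0, 1, 0, 2, 0, 1, 0, 1, 0, 1, 0, 1, 0, 2, 0, 2, 0, 1, 0, 1, 0, 1, 0, 1, 0, 2, 0, 1, 0, 1,
  0], 0),
  ([0, 2, 0, 1, 0, 2, 0, 2, 0, 2, 0, 2, 0, 1, 0, 1, 0, 2, 0, 2, 0, 1, 0, 2, 0, 1, 0, 1, 0, 2,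
  0, 1, 0, 2, 0, 1, 0, 2, 0, 1, 0, 2, 0, 2, 0, 2, 0, 1, 0, 2], [1, 0, 1, 0, 1, 0, 1, 0, 1, 0,
  2, 0, 2, 0, 2, 0, 1, 0, 2, 0, 1, 0, 1, 0, 1, 0, 2, 0, 1, 0, 1, 0, 2, 0, 2, 0, 2, 0, 1, 0, 2,
  0], 1),
  ([0, 2, 0, 1, 0, 1, 0, 1, 0, 2, 0, 2, 0, 1, 0, 2, 0, 1, 0, 2, 0, 1, 0, 2, 0, 2, 0, 2, 0, 2,
  0, 1, 0, 1, 0, 2, 0, 2, 0, 2, 0, 1, 0, 2, 0, 2, 0, 1, 0, 1], [1, 0, 1, 0, 1, 0, 1, 0, 2, 0,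
  2, 0, 2, 0, 2, 0, 1, 0, 1, 0, 1, 0, 2, 0, 2, 0, 2, 0, 2, 0, 1, 0, 2, 0, 2, 0, 2, 0, 2, 0, 1,
  0, 2, 0, 2], 0),
  ([1, 0, 2, 0, 1, 0, 2, 0, 2, 0, 1, 0, 1, 0, 1, 0, 1, 0, 1, 0, 1, 0, 2, 0, 1, 0, 2, 0, 1, 0,
  2, 0, 1, 0, 2, 0, 2, 0, 1, 0, 2, 0, 1, 0, 2, 0, 2, 0, 1, 0, 1, 0], [0, 2, 0, 2, 0, 1, 0, 2,
  0, 2, 0, 1, 0, 1, 0, 2, 0, 2, 0, 2, 0, 2, 0, 1, 0, 1, 0, 2, 0, 2, 0, 2, 0, 2, 0, 2, 0, 2, 0,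
  2, 0, 2, 0, 1, 0], 0),
  ([0, 1, 0, 2, 0, 1, 0, 2, 0, 2, 0, 1, 0, 2, 0, 2, 0, 2, 0, 2, 0, 2, 0, 2, 0, 2, 0, 1, 0, 2,
  0, 2, 0, 2, 0, 1, 0, 1, 0, 2, 0, 2, 0, 1, 0, 1, 0, 1, 0, 1, 0, 1, 0, 2, 0, 2, 0], [1, 0, 2,
  0, 2, 0, 1, 0, 2, 0, 2, 0, 2, 0, 2, 0, 2, 0, 2, 0, 1, 0, 2, 0, 2, 0, 2, 0, 1, 0, 1, 0, 2, 0,
  2, 0, 1, 0, 1], 0),
  ([0, 1, 0, 2, 0, 1, 0, 2, 0, 1, 0, 2, 0, 1, 0, 1, 0, 2, 0, 1, 0, 2, 0, 1, 0, 1, 0, 2, 0, 2,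
  0, 2, 0, 1, 0, 1, 0, 1, 0, 1, 0, 1, 0, 1, 0, 1, 0, 2, 0, 2, 0], [0, 2, 0, 1, 0, 2, 0, 2, 0,
  2, 0, 2, 0, 1, 0, 2, 0, 2, 0, 2, 0, 1, 0, 1, 0, 2, 0, 2, 0, 1, 0, 1, 0, 1, 0, 2, 0, 2, 0, 1,
  0, 1, 0], 1),
  ([0, 1, 0, 1, 0, 2, 0, 2, 0, 2, 0, 2, 0, 2, 0, 2, 0, 2, 0, 1, 0, 1, 0, 1, 0, 2, 0, 2, 0, 1,
  0, 2, 0, 1, 0, 2, 0, 2, 0, 1, 0, 2, 0, 1, 0, 2, 0, 1, 0, 2, 0], [0, 1, 0, 2, 0, 1, 0, 1, 0,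
  1, 0, 2, 0, 2, 0, 2, 0, 2, 0, 1, 0, 1, 0, 1, 0, 1, 0, 2, 0, 2, 0, 2, 0, 2, 0, 1, 0, 2, 0, 1,
  0, 1, 0, 2, 0, 2], 1),
  ([0, 1, 0, 2, 0, 2, 0, 1, 0, 1, 0, 1, 0, 2, 0, 1, 0, 1, 0, 1, 0, 1, 0, 1, 0, 1, 0, 1, 0, 2,
  0, 1, 0, 1, 0, 1, 0, 2, 0, 1, 0, 2, 0, 2, 0, 2, 0, 2, 0, 2, 0, 2, 0, 2], [1, 0, 2, 0, 2, 0,
  1, 0, 2, 0, 2, 0, 2, 0, 2, 0, 1, 0, 1, 0, 1, 0, 1, 0, 2, 0, 2, 0, 2, 0, 2, 0, 1, 0, 1, 0, 1,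
  0, 2, 0, 1, 0, 2, 0, 1, 0, 1], 0),
  ([2, 0, 2, 0, 2, 0, 2, 0, 2, 0, 2, 0, 1, 0, 2, 0, 2, 0, 2, 0, 1, 0, 1, 0, 2, 0, 1, 0, 1, 0,
  1, 0, 1, 0, 1, 0, 2, 0, 1, 0, 1, 0, 2], [0, 2, 0, 1, 0, 2, 0, 1, 0, 2, 0, 1, 0, 2, 0, 1, 0,
  1, 0, 2, 0, 2, 0, 2, 0, 2, 0, 1, 0, 2, 0, 1, 0, 1, 0, 1, 0, 2, 0, 2, 0, 2, 0, 1], 1),
  ([1, 0, 2, 0, 2, 0, 1, 0, 1, 0, 2, 0, 2, 0, 1, 0, 2, 0, 2, 0, 1, 0, 1, 0, 1, 0, 1, 0, 1, 0,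
  1, 0, 2, 0, 1, 0, 2, 0, 2, 0, 2, 0, 1, 0, 1, 0, 1, 0, 2, 0, 2, 0, 2, 0], [0, 2, 0, 2, 0, 2,
  0, 1, 0, 1, 0, 2, 0, 2, 0, 2, 0, 2, 0, 2, 0, 1, 0, 2, 0, 2, 0, 2, 0, 1, 0, 2, 0, 2, 0, 2, 0,
  1, 0, 1, 0, 2, 0], 0),
  ([0, 1, 0, 1, 0, 2, 0, 1, 0, 1, 0, 1, 0, 2, 0, 2, 0, 1, 0, 2, 0, 1, 0, 2, 0, 2, 0, 1, 0, 2,
  0, 1, 0, 2, 0, 1, 0, 2, 0, 1, 0, 2, 0, 2, 0, 2, 0, 2, 0, 1, 0, 2], [1, 0, 1, 0, 1, 0, 2, 0,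
  2, 0, 1, 0, 1, 0, 1, 0, 2, 0, 1, 0, 1, 0, 1, 0, 2, 0, 1, 0, 2, 0, 1, 0, 2, 0, 1, 0, 2, 0, 2,
  0, 2, 0, 1, 0, 1, 0, 2, 0], 0),
  ([2, 0, 2, 0, 1, 0, 2, 0, 2, 0, 2, 0, 2, 0, 1, 0, 1, 0, 1, 0, 2, 0, 2, 0, 2, 0, 2, 0, 1, 0,
  2, 0, 2, 0, 2, 0, 2, 0, 2, 0, 1, 0, 2, 0, 1, 0, 2, 0, 1, 0, 1, 0, 1], [1, 0, 2, 0, 2, 0, 1,
  0, 1, 0, 1, 0, 1, 0, 2, 0, 2, 0, 2, 0, 2, 0, 1, 0, 2, 0, 1, 0, 2, 0, 1, 0, 2, 0, 1, 0, 2, 0,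
  1, 0, 1, 0, 1, 0, 1], 1)]

/-- the packed elements of the Sylow 3-subgroup -/
def l27 : List ℕ := ID :: tab3.map fun r => wordP r.1

/-- the check -/
def chk3 : Bool :=
  (l27.all fun a => l27.all fun b => l27.any fun c => Nat.beq (pmul a b) c) &&
  (l27.all fun a => l27.any fun b => Nat.beq (pmul a b) ID) &&
  Nat.beq l27.length 27 && decide (l27.Nodup) &&
  (tab3.all fun r => Nat.beq (wordP (r.2.1 ++ r.1))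
    (bif Nat.beq r.2.2 0 then wordP (w0 ++ r.2.1) else wordP (w1 ++ r.2.1)))

set_option maxRecDepth 10000 in
theorem chk3_ok : chk3 = true := by decide +kernel

theorem rep_unique {n n' : ℕ} {g : M24} (h : Rep n g) (h' : Rep n' g) (hn : n < 2 ^ 192)
    (hn' : n' < 2 ^ 192) : n = n' := by
  apply Nat.eq_of_testBit_eq
  intro k
  rcases Nat.lt_or_ge k 192 with hk | hk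
  · have e : ∀ n : ℕ, n.testBit k = (getb n (k / 8)).testBit (k % 8) := by
      intro n
      rw [testBit_getb, Nat.div_add_mod, decide_eq_true (Nat.mod_lt k (by norm_num)),
        Bool.and_true]
    rw [e n, e n']
    obtain ⟨j, hj, h1, h2⟩ := h (k / 8) (by omega)
    obtain ⟨j', hj', h3, h4⟩ := h' (k / 8) (by omega)
    have h5 : j = j' := lab_inj j hj j' hj' (h2.symm.trans h4)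
    rw [h1, h3, h5]
  · have h192 : (2 : ℕ) ^ 192 ≤ 2 ^ k := Nat.pow_le_pow_right (by norm_num) hk
    rw [Nat.testBit_lt_two_pow (lt_of_lt_of_le hn h192),
      Nat.testBit_lt_two_pow (lt_of_lt_of_le hn' h192)]

theorem chk3_mul {a b : ℕ} (ha : a ∈ l27) (hb : b ∈ l27) : pmul a b ∈ l27 := by
  have h := chk3_ok
  unfold chk3 at h
  rw [Bool.and_eq_true, Bool.and_eq_true, Bool.and_eq_true, Bool.and_eq_true] at h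
  have h1 := List.all_eq_true.1 (List.all_eq_true.1 h.1.1.1.1 a ha) b hb
  obtain ⟨c, hc, h2⟩ := List.any_eq_true.1 h1
  rw [Nat.eq_of_beq_eq_true h2]
  exact hc

theorem chk3_inv {a : ℕ} (ha : a ∈ l27) : ∃ b ∈ l27, pmul a b = ID := by
  have h := chk3_ok
  unfold chk3 at h
  rw [Bool.and_eq_true, Bool.and_eq_true, Bool.and_eq_true, Bool.and_eq_true] at h
  obtain ⟨c, hc, h2⟩ := List.any_eq_true.1 (List.all_eq_true.1 h.1.1.1.2 a ha)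
  exact ⟨c, hc, Nat.eq_of_beq_eq_true h2⟩

theorem l27_nodup : l27.Nodup := by
  have h := chk3_ok
  unfold chk3 at h
  rw [Bool.and_eq_true, Bool.and_eq_true, Bool.and_eq_true, Bool.and_eq_true] at h
  exact of_decide_eq_true h.1.2

theorem l27_length : l27.length = 27 := by
  have h := chk3_ok
  unfold chk3 at h
  rw [Bool.and_eq_true, Bool.and_eq_true, Bool.and_eq_true, Bool.and_eq_true] at h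
  exact Nat.eq_of_beq_eq_true h.1.1.2

theorem chk3_row {r : List ℕ × List ℕ × ℕ} (hr : r ∈ tab3) :
    wordG r.2.1 * wordG r.1 = wordG w0 * wordG r.2.1 ∨
    wordG r.2.1 * wordG r.1 = wordG w1 * wordG r.2.1 := by
  have h := chk3_ok
  unfold chk3 at h
  rw [Bool.and_eq_true, Bool.and_eq_true, Bool.and_eq_true, Bool.and_eq_true] at h
  have h1 := Nat.eq_of_beq_eq_true (List.all_eq_true.1 h.2 r hr)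
  rw [← Cfsg.Agent.H858.M24Norm.wordG_append, ← Cfsg.Agent.H858.M24Norm.wordG_append,
    ← Cfsg.Agent.H858.M24Norm.wordG_append]
  rcases hb : Nat.beq r.2.2 0 with _ | _
  · rw [hb] at h1; exact Or.inr (Cfsg.Agent.H858.M24Norm.wordG_eq h1)
  · rw [hb] at h1; exact Or.inl (Cfsg.Agent.H858.M24Norm.wordG_eq h1)

/-- the Sylow 3-subgroup -/
def S27 : Subgroup M24 where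
  carrier := {g | ∃ n ∈ l27, Rep n g}
  mul_mem' := by
    rintro a b ⟨n, hn, h1⟩ ⟨m, hm, h2⟩
    exact ⟨_, chk3_mul hn hm, rep_mul h1 h2⟩
  one_mem' := ⟨ID, List.mem_cons_self .., rep_one⟩
  inv_mem' := by
    rintro a ⟨n, hn, h1⟩
    obtain ⟨m, hm, h2⟩ := chk3_inv hn
    exact ⟨m, hm, rep_inv h1 h2⟩

theorem exists_rep {n : ℕ} (hn : n ∈ l27) : ∃ g : M24, Rep n g ∧ (n = ID ∨ ∃ r ∈ tab3,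
    g = wordG r.1) := by
  unfold l27 at hn
  rcases List.mem_cons.1 hn with rfl | h
  · exact ⟨1, rep_one, Or.inl rfl⟩
  · obtain ⟨r, hr, rfl⟩ := List.mem_map.1 h
    exact ⟨_, rep_word _, Or.inr ⟨r, hr, rfl⟩⟩

theorem l27_lt : ∀ n ∈ l27, n < 2 ^ 192 := by
  have h : (l27.all fun n => Nat.blt n (2 ^ 192)) = true := by decide +kernel
  intro n hn
  exact Nat.blt_eq.mp (List.all_eq_true.1 h n hn)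

theorem card_S27 : Nat.card S27 = 27 := by
  classical
  have hex : ∀ g : S27, ∃ n : {n // n ∈ l27}, Rep n.1 (g : M24) := fun g => by
    obtain ⟨n, hn, h⟩ := g.2
    exact ⟨⟨n, hn⟩, h⟩
  choose f hf using hex
  have hbij : Function.Bijective f := by
    constructor
    · intro a b hab
      apply Subtype.ext
      have h1 := hf b
      rw [← hab] at h1
      exact rep_inj (hf a) h1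
    · rintro ⟨n, hn⟩
      obtain ⟨g, hg, -⟩ := exists_rep hn
      refine ⟨⟨g, n, hn, hg⟩, ?_⟩
      apply Subtype.ext
      exact rep_unique (hf ⟨g, n, hn, hg⟩) hg (l27_lt _ (f ⟨g, n, hn, hg⟩).2) (l27_lt _ hn)
  rw [Nat.card_congr (Equiv.ofBijective f hbij)]
  have h1 : Nat.card {n // n ∈ l27} = Nat.card {n // n ∈ l27.toFinset} :=
    Nat.card_congr (Equiv.subtypeEquivRight fun n => List.mem_toFinset.symm)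
  rw [h1, Nat.card_eq_finsetCard, List.toFinset_card_of_nodup l27_nodup, l27_length]

/-- **the elements of order 3 of `M24`** -/
theorem order3 (m : M24) (h1 : m ≠ 1) (h3 : m * m * m = 1) :
    ∃ g : M24, g * m * g⁻¹ = wordG w0 ∨ g * m * g⁻¹ = wordG w1 := by
  have hfin := Cfsg.Agent.H858.M24Norm.finite_M24
  have hp : IsPGroup 3 (Subgroup.zpowers m) := by
    rw [IsPGroup.iff_card]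
    refine ⟨1, ?_⟩
    rw [Nat.card_zpowers, pow_one]
    exact orderOf_eq_prime (by rw [pow_succ, pow_two, h3]) h1
  have hidx : ¬ 3 ∣ Nat.card (M24 ⧸ S27) := by
    have h := S27.card_mul_index
    rw [card_S27, Cfsg.Agent.H858.M24Norm.card_M24] at h
    rw [← Subgroup.index_eq_card]
    omega
  have : Fact (Nat.Prime 3) := ⟨Nat.prime_three⟩
  obtain ⟨x, hx⟩ := hp.nonempty_fixed_point_of_prime_not_dvd_card (M24 ⧸ S27) hidx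
  obtain ⟨g, rfl⟩ := QuotientGroup.mk_surjective x
  have h5 := hx ⟨m, Subgroup.mem_zpowers m⟩
  have h6 : (QuotientGroup.mk (m * g) : M24 ⧸ S27) = QuotientGroup.mk g := h5
  rw [eq_comm, QuotientGroup.eq] at h6
  obtain ⟨n, hn, h7⟩ := h6
  obtain ⟨e, he, h8⟩ := exists_rep hn
  have h9 : g⁻¹ * (m * g) = e := rep_inj h7 he
  rcases h8 with h8 | ⟨r, hr, h8⟩
  · exfalso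
    apply h1
    have h10 : e = 1 := by rw [h8] at he; exact rep_inj he rep_one
    rw [h10, inv_mul_eq_one] at h9
    exact right_eq_mul.1 h9
  · have h11 := chk3_row hr
    rw [← h8, ← h9] at h11
    refine ⟨wordG r.2.1 * g⁻¹, ?_⟩
    rcases h11 with h11 | h11
    · left
      calc wordG r.2.1 * g⁻¹ * m * (wordG r.2.1 * g⁻¹)⁻¹
          = (wordG r.2.1 * (g⁻¹ * (m * g))) * (wordG r.2.1)⁻¹ := by group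
        _ = wordG w0 := by rw [h11, mul_inv_cancel_right]
    · right
      calc wordG r.2.1 * g⁻¹ * m * (wordG r.2.1 * g⁻¹)⁻¹
          = (wordG r.2.1 * (g⁻¹ * (m * g))) * (wordG r.2.1)⁻¹ := by group
        _ = wordG w1 := by rw [h11, mul_inv_cancel_right]

end Cfsg.Agent.H761.JM
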